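import Cfsg.Agent.Lib.Bend.BendCor
import Cfsg.Agent.Lib.Suz.Final
import Cfsg.Agent.Lib.Suz.Step3

/-! Groups whose involution centralizers look like the one of `PGU₃(q)`, `q` even: the abstract part. -/

set_option autoImplicit false

namespace CA.H19Pgu

open Subgroup Cfsg

/-- the shape of the centralizer of an involution of `PGU₃(q)` -/
structure Spec (C : Type*) [Group C] (q : ℕ) : Prop where
  cen : ∀ x y : C, x * x = 1 → x * y = y * x
  inv : Nat.card {x : C // x * x = 1} = q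
  syl : ∃ T : Subgroup C, Nat.card T = q ^ 3 ∧ (∀ x, x ∈ T ↔ ∃ k : ℕ, x ^ 2 ^ k = 1) ∧
    ∀ x : C, (∀ y ∈ T, x * y = y * x) → x ∈ T

theorem Spec.of_equiv {C D : Type*} [Group C] [Group D] {q : ℕ} (h : Spec D q) (e : C ≃* D) : Spec C q := by
  obtain ⟨h1, h2, T, h3, h4, h5⟩ := h
  refine ⟨fun x y hx => e.injective ?_, ?_, T.comap e.toMonoidHom, ?_, fun x => ?_, fun x hx => ?_⟩
  · rw [map_mul, map_mul, h1 (e x) (e y) (by rw [← map_mul, hx, map_one])]
  · rw [← h2]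
    exact Nat.card_congr (e.toEquiv.subtypeEquiv fun x => by
      rw [MulEquiv.toEquiv_eq_coe, EquivLike.coe_coe, ← map_mul, map_eq_one_iff _ e.injective])
  · rw [← h3]
    exact Nat.card_congr (e.toEquiv.subtypeEquiv fun x => Iff.rfl)
  · rw [mem_comap, h4]
    exact exists_congr fun k => by
      rw [MulEquiv.coe_toMonoidHom, ← map_pow, map_eq_one_iff _ e.injective]
  · refine h5 _ fun y hy => ?_
    obtain ⟨y, rfl⟩ := e.surjective y
    rw [MulEquiv.coe_toMonoidHom, ← map_mul, hx y hy, map_mul]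

variable {G : Type*} [Group G]

/-- the same at an element of a group -/
structure At (t : G) (q : ℕ) : Prop where
  cen : ∀ x y : G, x * x = 1 → x * t = t * x → y * t = t * y → x * y = y * x
  inv : Nat.card {x : G // x * t = t * x ∧ x * x = 1} = q
  syl : ∃ T : Subgroup G, Nat.card T = q ^ 3 ∧ (∀ x, x ∈ T ↔ x * t = t * x ∧ ∃ k : ℕ, x ^ 2 ^ k = 1) ∧
    ∀ x : G, x * t = t * x → (∀ y ∈ T, x * y = y * x) → x ∈ T

theorem mc {t x : G} : x ∈ centralizer ({t} : Set G) ↔ x * t = t * x := mem_centralizer_singleton_iff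

theorem At.of_spec {t : G} {q : ℕ} (h : Spec (centralizer ({t} : Set G)) q) : At t q := by
  obtain ⟨h1, h2, T, h3, h4, h5⟩ := h
  refine ⟨fun x y hx h6 h7 => congrArg Subtype.val (h1 ⟨x, mc.2 h6⟩ ⟨y, mc.2 h7⟩ (Subtype.ext hx)), ?_,
    T.map (Subgroup.subtype _), ?_, fun x => ⟨?_, fun ⟨h6, k, h7⟩ => ?_⟩, fun x hx h6 => ?_⟩
  · rw [← h2]
    exact Nat.card_congr
      { toFun := fun x => ⟨⟨x.1, mc.2 x.2.1⟩, Subtype.ext x.2.2⟩
        invFun := fun x => ⟨x.1.1, mc.1 x.1.2, congrArg Subtype.val x.2⟩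
        left_inv := fun _ => rfl
        right_inv := fun _ => rfl }
  · rw [card_map_of_injective (Subgroup.subtype_injective _), h3]
  · rintro ⟨x, hx, rfl⟩
    obtain ⟨k, hk⟩ := (h4 x).1 hx
    exact ⟨mc.1 x.2, k, congrArg Subtype.val hk⟩
  · exact ⟨⟨x, mc.2 h6⟩, (h4 _).2 ⟨k, Subtype.ext h7⟩, rfl⟩
  · exact ⟨⟨x, mc.2 hx⟩, h5 _ fun y hy => Subtype.ext (h6 _ ⟨y, hy, rfl⟩), rfl⟩

/-- the hypothesis on `G` -/
structure Hyp (G : Type*) [Group G] (q : ℕ) : Prop where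
  two : 2 < q
  even : Even (Nat.card G)
  loc : ∀ t : G, t ≠ 1 → t * t = 1 → At t q
  nn : ∀ P : Sylow 2 G, ¬ (P : Subgroup G).Normal

theorem eq_one_of_odd {K : Subgroup G} (hK : Odd (Nat.card K)) {x : G} (hx : x ∈ K) {k : ℕ}
    (h : x ^ 2 ^ k = 1) : x = 1 := by
  have h1 : orderOf x ∣ Nat.card K := K.orderOf_dvd_natCard hx
  have h2 : orderOf x ∣ 2 ^ k := orderOf_dvd_of_pow_eq_one h
  exact orderOf_eq_one_iff.1 (Nat.eq_one_of_dvd_coprimes
    (Nat.Coprime.pow_right k (Nat.coprime_two_right.2 hK)) h1 h2)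

theorem exists_inv [Finite G] {K : Subgroup G} (hK : ¬ Odd (Nat.card K)) : ∃ x ∈ K, x ≠ 1 ∧ x * x = 1 := by
  haveI := Fact.mk Nat.prime_two
  obtain ⟨x, hx⟩ := exists_prime_orderOf_dvd_card' (G := K) 2 (even_iff_two_dvd.1 (Nat.not_odd_iff_even.1 hK))
  refine ⟨x, x.2, fun e => ?_, ?_⟩
  · rw [show x = 1 from Subtype.ext e, orderOf_one] at hx; omega
  · have := pow_orderOf_eq_one x
    rw [hx, sq] at this
    exact congrArg Subtype.val this

namespace Hyp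
variable [Finite G] {q : ℕ} (h : Hyp G q)
include h

omit [Finite G] in
theorem tr {s t u : G} (t1 : t ≠ 1) (t2 : t * t = 1) (s2 : s * s = 1) (h1 : s * t = t * s) (h2 : u * t = t * u) :
    s * u = u * s := (h.loc t t1 t2).cen s u s2 h1 h2

/-- the involutions commuting with `t` -/
def E (t : G) (t1 : t ≠ 1) (t2 : t * t = 1) : Subgroup G where
  carrier := {x | x * t = t * x ∧ x * x = 1}
  one_mem' := by simp
  mul_mem' := fun {x y} hx hy => ⟨by rw [mul_assoc, hy.1, ← mul_assoc, hx.1, mul_assoc], by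
    rw [show x * y * (x * y) = x * (y * x) * y by group, h.tr t1 t2 hy.2 hy.1 hx.1,
      show x * (x * y) * y = x * x * (y * y) by group, hx.2, hy.2, one_mul]⟩
  inv_mem' := fun {x} hx => by rwa [inv_eq_of_mul_eq_one_right hx.2]

omit [Finite G] in
theorem mem_E {t : G} {t1 : t ≠ 1} {t2 : t * t = 1} {x : G} : x ∈ h.E t t1 t2 ↔ x * t = t * x ∧ x * x = 1 :=
  Iff.rfl

/-- a Sylow subgroup is the set of `2`-elements of the centralizer of an involution -/
theorem exists_z (P : Sylow 2 G) : ∃ z : G, z ≠ 1 ∧ z * z = 1 ∧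
    ∀ x, x ∈ (P : Subgroup G) ↔ x * z = z * x ∧ ∃ k : ℕ, x ^ 2 ^ k = 1 := by
  haveI := Fact.mk Nat.prime_two
  have h1 : Nontrivial (P : Subgroup G) := by
    rw [← Finite.one_lt_card_iff_nontrivial]
    have := P.dvd_card_of_dvd_card (even_iff_two_dvd.1 h.even)
    exact lt_of_lt_of_le one_lt_two (Nat.le_of_dvd Nat.card_pos this)
  have h2 := P.isPGroup'.center_nontrivial
  obtain ⟨n, hn0, hn⟩ := (P.isPGroup'.to_subgroup (center _)).nontrivial_iff_card.1 h2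
  obtain ⟨z, hz, z1, z2⟩ := exists_inv (K := center (P : Subgroup G)) (by
    rw [hn, Nat.not_odd_iff_even]; exact (Nat.even_pow' hn0.ne').2 even_two)
  have z1' : z.1 ≠ 1 := fun e => z1 (Subtype.ext e)
  have z2' : z.1 * z.1 = 1 := congrArg Subtype.val z2
  obtain ⟨T, -, h4, -⟩ := (h.loc z z1' z2').syl
  have h5 : (P : Subgroup G) ≤ T := fun x hx => by
    obtain ⟨k, hk⟩ := P.isPGroup' ⟨x, hx⟩
    exact (h4 x).2 ⟨congrArg Subtype.val (mem_center_iff.1 hz ⟨x, hx⟩), k, congrArg Subtype.val hk⟩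
  have h6 : T = P := P.is_maximal' (fun x => by
    obtain ⟨k, hk⟩ := ((h4 x).1 x.2).2
    exact ⟨k, Subtype.ext hk⟩) h5
  exact ⟨z, z1', z2', fun x => by rw [← h4, h6]⟩

theorem card_syl (P : Sylow 2 G) : Nat.card (P : Subgroup G) = q ^ 3 ∧ CA.Tri.qq (P : Subgroup G) = q := by
  obtain ⟨z, z1, z2, hz⟩ := h.exists_z P
  obtain ⟨T, h3, h4, -⟩ := (h.loc z z1 z2).syl
  refine ⟨by rw [← h3, show T = P from Subgroup.ext fun x => by rw [h4, hz]], ?_⟩
  rw [← (h.loc z z1 z2).inv]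
  exact Nat.card_congr (Equiv.subtypeEquivRight fun x => by
    rw [hz]
    exact ⟨fun e => ⟨e.1.1, e.2⟩, fun e => ⟨⟨e.1, 1, by rw [pow_one, sq, e.2]⟩, e.2⟩⟩)

/-- every involution fails to commute with some involution -/
theorem exists_nc {s : G} (s1 : s ≠ 1) (s2 : s * s = 1) : ∃ w : G, w ≠ 1 ∧ w * w = 1 ∧ w * s ≠ s * w := by
  haveI := Fact.mk Nat.prime_two
  by_contra hc
  push Not at hc
  obtain ⟨P⟩ : Nonempty (Sylow 2 G) := inferInstance
  obtain ⟨z, z1, z2, hz⟩ := h.exists_z P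
  refine h.nn P ⟨fun x hx g => ?_⟩
  obtain ⟨h1, k, hk⟩ := (hz x).1 hx
  refine (hz _).2 ⟨?_, k, by rw [conj_pow, hk]; group⟩
  have h2 : g⁻¹ * z * g * (g⁻¹ * z * g) = 1 := by
    rw [show g⁻¹ * z * g * (g⁻¹ * z * g) = g⁻¹ * (z * z) * g by group, z2]; group
  have h3 : g⁻¹ * z * g ≠ 1 := fun e => z1 (by
    rw [show z = g * (g⁻¹ * z * g) * g⁻¹ by group, e]; group)
  have h4 := h.tr z1 z2 h2 (h.tr s1 s2 h2 (hc _ h3 h2) (hc z z1 z2)) h1
  calc _ = g * (x * (g⁻¹ * z * g)) * g⁻¹ := by group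
    _ = _ := by rw [← h4]; group

omit [Finite G] in
/-- an involution normalizing `E` lies in it -/
theorem mem_E_of_norm {t : G} {t1 : t ≠ 1} {t2 : t * t = 1} {u : G} (u2 : u * u = 1)
    (hu : u ∈ normalizer (h.E t t1 t2 : Set G)) : u * t = t * u := by
  by_contra hc
  have h1 : u * t * u⁻¹ ∈ h.E t t1 t2 := (mem_normalizer_iff.1 hu t).1 ⟨rfl, t2⟩
  have h2 : t * (u * t * u⁻¹) ∈ h.E t t1 t2 := mul_mem ⟨rfl, t2⟩ h1
  have hi : u⁻¹ = u := inv_eq_of_mul_eq_one_right u2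
  have h3 : t * (u * t * u⁻¹) ≠ 1 := fun e => hc (by
    have := eq_inv_of_mul_eq_one_right e
    rw [inv_eq_of_mul_eq_one_right t2, mul_inv_eq_iff_eq_mul] at this
    exact this)
  refine hc (h.tr h3 h2.2 u2 ?_ h2.1.symm)
  have h4 := h1.1
  rw [hi] at h4 ⊢
  calc _ = u * u * (t * u * t) := by rw [← h4]; simp only [mul_assoc]
    _ = t * u * t * (u * u) := by rw [u2, one_mul, mul_one]
    _ = _ := by simp only [mul_assoc]

omit [Finite G] in
theorem E_eq {t u : G} {t1 : t ≠ 1} {t2 : t * t = 1} {u1 : u ≠ 1} {u2 : u * u = 1} (e : u * t = t * u) :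
    h.E u u1 u2 = h.E t t1 t2 :=
  Subgroup.ext fun _ => ⟨fun hx => ⟨h.tr u1 u2 hx.2 hx.1 e.symm, hx.2⟩, fun hx => ⟨h.tr t1 t2 hx.2 hx.1 e, hx.2⟩⟩

omit [Finite G] in
theorem cent_le {t : G} {t1 : t ≠ 1} {t2 : t * t = 1} {g : G} (hg : g * t = t * g) :
    g ∈ normalizer (h.E t t1 t2 : Set G) :=
  centralizer_le_normalizer _ (mem_centralizer_iff.2 fun _ hx => h.tr t1 t2 hx.2 hx.1 hg)

theorem se {t : G} (t1 : t ≠ 1) (t2 : t * t = 1) : IsStronglyEmbedded (normalizer (h.E t t1 t2 : Set G)) := by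
  refine ⟨fun e => ?_, ?_, fun g hg => ?_⟩
  · obtain ⟨w, -, w2, hw⟩ := h.exists_nc t1 t2
    exact hw (h.mem_E_of_norm w2 (e ▸ mem_top w))
  · by_contra hc
    exact t1 (eq_one_of_odd (Nat.not_even_iff_odd.1 hc) (h.cent_le rfl) (k := 1) (by rw [pow_one, sq, t2]))
  · by_contra hc
    obtain ⟨u, ⟨hu, v, hv, e⟩, u1, u2⟩ := exists_inv hc
    have e' : g * v * g⁻¹ = u := e
    have v2 : v * v = 1 := by
      rw [show v = g⁻¹ * u * g by rw [← e']; group, show g⁻¹ * u * g * (g⁻¹ * u * g) = g⁻¹ * (u * u) * g by group,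
        u2]; group
    have v1 : v ≠ 1 := fun e => u1 (by rw [← e', e]; group)
    refine hg (mem_normalizer_fintype fun x hx => ?_)
    have h1 : x ∈ h.E v v1 v2 := h.E_eq (h.mem_E_of_norm v2 hv) ▸ hx
    rw [← h.E_eq (u1 := u1) (u2 := u2) (h.mem_E_of_norm u2 hu)]
    refine ⟨?_, by rw [show g * x * g⁻¹ * (g * x * g⁻¹) = g * (x * x) * g⁻¹ by group, h1.2]; group⟩
    rw [← e']
    calc _ = g * (x * v) * g⁻¹ := by group
      _ = _ := by rw [h1.1]; group

theorem rk : CA.Bend.Rk2 (⊤ : Subgroup G) := by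
  obtain ⟨t, -, t1, t2⟩ := exists_inv (K := (⊤ : Subgroup G)) (by
    rw [Nat.not_odd_iff_even, card_top]; exact h.even)
  have h1 : 2 < Nat.card {x : G // x * t = t * x ∧ x * x = 1} := (h.loc t t1 t2).inv ▸ h.two
  by_contra hc
  have h2 : ∀ x : {x : G // x * t = t * x ∧ x * x = 1}, x = ⟨1, by simp⟩ ∨ x = ⟨t, rfl, t2⟩ := fun x => by
    by_contra h3
    push Not at h3
    exact hc ⟨x, trivial, t, trivial, fun e => h3.1 (Subtype.ext e), t1, fun e => h3.2 (Subtype.ext e), x.2.2, t2,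
      x.2.1⟩
  have h3 := Nat.card_le_card_of_surjective (fun b : Bool => if b then (⟨1, by simp⟩ :
    {x : G // x * t = t * x ∧ x * x = 1}) else ⟨t, rfl, t2⟩) fun x => by
      rcases h2 x with e | e
      · exact ⟨true, e.symm⟩
      · exact ⟨false, e.symm⟩
  rw [Nat.card_eq_fintype_card (α := Bool), Fintype.card_bool] at h3
  omega

omit [Finite G] in
theorem bot_of_odd {t : G} {t1 : t ≠ 1} {t2 : t * t = 1} {K : Subgroup G} [hn : K.Normal] (hK : Odd (Nat.card K))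
    (hle : K ≤ normalizer (h.E t t1 t2 : Set G)) : K = ⊥ := by
  obtain ⟨T, -, h4, h5⟩ := (h.loc t t1 t2).syl
  refine eq_bot_iff.2 fun k hk => ?_
  have h1 : k * t = t * k := by
    have a1 : k * t * k⁻¹ * t ∈ h.E t t1 t2 := mul_mem ((mem_normalizer_iff.1 (hle hk) t).1 ⟨rfl, t2⟩) ⟨rfl, t2⟩
    have a2 : k * t * k⁻¹ * t ∈ K := by
      have := mul_mem hk (hn.conj_mem _ (inv_mem hk) t)
      rwa [inv_eq_of_mul_eq_one_right t2, ← mul_assoc, ← mul_assoc] at this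
    have a3 := eq_one_of_odd hK a2 (k := 1) (by rw [pow_one, sq, a1.2])
    have a4 := eq_inv_of_mul_eq_one_left a3
    rwa [inv_eq_of_mul_eq_one_right t2, mul_inv_eq_iff_eq_mul] at a4
  have h2 : k ∈ T := h5 k h1 fun y hy => by
    obtain ⟨a1, j, a2⟩ := (h4 y).1 hy
    have a3 : k * y * k⁻¹ ∈ T := (h4 _).2 ⟨by
      calc _ = k * y * k⁻¹ * (t * k) * k⁻¹ := by group
        _ = k * (y * t) * k⁻¹ := by rw [← h1]; group
        _ = k * t * y * k⁻¹ := by rw [a1]; group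
        _ = _ := by rw [h1]; group, j, by rw [conj_pow, a2]; group⟩
    obtain ⟨-, i, a4⟩ := (h4 _).1 (mul_mem a3 (inv_mem hy))
    have a5 : k * y * k⁻¹ * y⁻¹ ∈ K := by
      have := mul_mem hk (hn.conj_mem _ (inv_mem hk) y)
      rwa [← mul_assoc, ← mul_assoc] at this
    have a6 := eq_one_of_odd hK a5 a4
    rwa [mul_inv_eq_one, mul_inv_eq_iff_eq_mul] at a6
  obtain ⟨-, j, a2⟩ := (h4 k).1 h2
  exact eq_one_of_odd hK hk a2

theorem conj_nc {L : Subgroup G} {s u : G} (hs : s ∈ L) (hu : u ∈ L) (s2 : s * s = 1) (u2 : u * u = 1)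
    (hc : s * u ≠ u * s) : ∃ l ∈ L, l * u * l⁻¹ = s := by
  have hi : u⁻¹ = u := inv_eq_of_mul_eq_one_right u2
  have key : ∀ k : ℕ, u * (s * u) ^ k = ((s * u) ^ k)⁻¹ * u := fun k => by
    have : u * (s * u) * u⁻¹ = (s * u)⁻¹ := by
      rw [mul_inv_rev, hi, inv_eq_of_mul_eq_one_right s2, mul_assoc, mul_assoc, u2, mul_one]
    rw [← inv_pow, ← this, conj_pow]; group
  rcases Nat.even_or_odd' (orderOf (s * u)) with ⟨m, hm | hm⟩
  · exfalso
    have m0 : 0 < m := by have := orderOf_pos (s * u); omega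
    have w1 : (s * u) ^ m ≠ 1 := pow_ne_one_of_lt_orderOf m0.ne' (by omega)
    have w2 : (s * u) ^ m * (s * u) ^ m = 1 := by rw [← pow_add, ← two_mul, ← hm, pow_orderOf_eq_one]
    have a1 := key m
    rw [inv_eq_of_mul_eq_one_right w2] at a1
    refine hc (h.tr w1 w2 s2 ?_ a1)
    calc _ = s * u * (u * (s * u) ^ m) := by rw [mul_assoc, ← mul_assoc u u, u2, one_mul]
      _ = (s * u) ^ m * (s * u) * u := by rw [a1, ← mul_assoc, ← pow_succ', pow_succ]
      _ = _ := by rw [mul_assoc, mul_assoc, u2, mul_one]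
  · refine ⟨(s * u) ^ (m + 1), pow_mem (mul_mem hs hu) _, ?_⟩
    have a1 : u * ((s * u) ^ (m + 1))⁻¹ = (s * u) ^ (m + 1) * u := by
      rw [mul_inv_eq_iff_eq_mul, mul_assoc, key, mul_inv_cancel_left]
    rw [mul_assoc, a1, ← mul_assoc, ← pow_add, show m + 1 + (m + 1) = orderOf (s * u) + 1 by omega, pow_succ,
      pow_orderOf_eq_one, one_mul, mul_assoc, u2, mul_one]

omit h [Finite G] in
theorem inv_mem_of_odd {L : Subgroup G} [L.Normal] (hL : Odd L.index) {s : G} (s2 : s * s = 1) : s ∈ L := by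
  obtain ⟨m, hm⟩ := hL
  have := L.pow_index_mem s
  rwa [hm, pow_succ, pow_mul, sq, s2, one_pow, one_mul] at this

theorem conj_in {L : Subgroup G} [L.Normal] (hL : Odd L.index) {s u : G} (s1 : s ≠ 1) (u1 : u ≠ 1) (s2 : s * s = 1)
    (u2 : u * u = 1) : ∃ l ∈ L, l * u * l⁻¹ = s := by
  by_cases hc : s * u = u * s
  · obtain ⟨w, w1, w2, hw⟩ := h.exists_nc s1 s2
    obtain ⟨l, hl, e⟩ := h.conj_nc (inv_mem_of_odd hL s2) (inv_mem_of_odd hL w2) s2 w2 (Ne.symm hw)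
    obtain ⟨l', hl', e'⟩ := h.conj_nc (inv_mem_of_odd hL w2) (inv_mem_of_odd hL u2) w2 u2
      fun e => hw (h.tr u1 u2 w2 e hc)
    exact ⟨l * l', mul_mem hl hl', by rw [← e, ← e']; group⟩
  · exact h.conj_nc (inv_mem_of_odd hL s2) (inv_mem_of_odd hL u2) s2 u2 hc

theorem cent_bot {L : Subgroup G} [L.Normal] (hL : Odd L.index) : centralizer (L : Set G) = ⊥ := by
  obtain ⟨t, -, t1, t2⟩ := exists_inv (K := (⊤ : Subgroup G)) (by
    rw [Nat.not_odd_iff_even, card_top]; exact h.even)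
  refine h.bot_of_odd (t1 := t1) (t2 := t2) ?_ fun g hg =>
    h.cent_le (mem_centralizer_iff.1 hg t (inv_mem_of_odd hL t2)).symm
  by_contra hc
  obtain ⟨u, hu, u1, u2⟩ := exists_inv hc
  obtain ⟨w, -, w2, hw⟩ := h.exists_nc u1 u2
  exact hw (mem_centralizer_iff.1 hu w (inv_mem_of_odd hL w2))

/-- Bender's theorem gives a normal `PSU₃(q)` of odd index. -/
theorem exists_L : ∃ (L : Subgroup G) (_ : L.Normal) (F : Type) (_ : Field F) (_ : Fintype F),
    Odd L.index ∧ Fintype.card F = q ^ 2 ∧ Nonempty (L ≃* PSU 3 F q) := by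
  obtain ⟨z, -, z1, z2⟩ := exists_inv (K := (⊤ : Subgroup G)) (by
    rw [Nat.not_odd_iff_even, card_top]; exact h.even)
  have hH := h.se z1 z2
  obtain ⟨k3, k4, k5⟩ := CA.BendRed.one_quot hH
  haveI : FaithfulSMul G (G ⧸ normalizer (h.E z z1 z2 : Set G)) := by
    refine ⟨fun {x y} e => ?_⟩
    have h1 : (normalizer (h.E z z1 z2 : Set G)).normalCore = ⊥ := by
      refine h.bot_of_odd ?_ (normalCore_le _)
      obtain ⟨g, hg⟩ : ∃ g, g ∉ normalizer (h.E z z1 z2 : Set G) := by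
        by_contra hc
        push Not at hc
        exact hH.1 (eq_top_iff.2 fun g _ => hc g)
      refine (hH.2.2 g hg).of_dvd_nat (card_dvd_of_le (le_inf (normalCore_le _) fun x hx => ?_))
      exact ⟨g⁻¹ * x * g⁻¹⁻¹, hx g⁻¹, by simp [MulAut.conj_apply, mul_assoc]⟩
    have h2 : y⁻¹ * x ∈ (normalizer (h.E z z1 z2 : Set G)).normalCore := by
      rw [normalCore_eq_ker, MonoidHom.mem_ker]
      ext b
      simp [mul_smul, e]
    rw [h1, mem_bot, inv_mul_eq_one] at h2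
    exact h2.symm
  obtain ⟨t, Q, hS, hQ⟩ := CA.BendCor.setup_at k3 k4 k5 h.rk (1 : G)
  obtain ⟨P, rfl⟩ := CA.BendCor.syl_Q hS hQ
  obtain ⟨h1, h3⟩ := h.card_syl P
  have h2 := CA.BendRed.rk_iff.1 h.rk
  have h4 := h.two
  rcases CA.SuzFinal.of_tri hS h2 (CA.SuzStep.tri _ _ _ t _ hS h2) with
    ⟨h5, -⟩ | ⟨h5, -⟩ | ⟨-, F, _, _, n, -, h6, h7, e⟩
  · exfalso
    have : CA.Tri.qq (P : Subgroup G) = Nat.card (P : Subgroup G) :=
      Nat.card_congr (Equiv.subtypeEquivRight fun x => ⟨fun e => e.1, fun e => ⟨e, h5 x e⟩⟩)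
    rw [h1, h3] at this
    have := Nat.pow_lt_pow_right (show 1 < q by omega) (show 1 < 3 by omega)
    rw [pow_one] at this
    omega
  · exfalso
    rw [h1, h3] at h5
    have := Nat.pow_lt_pow_right (show 1 < q by omega) (show 2 < 3 by omega)
    omega
  · rw [h3] at h7
    rw [← h7] at h6 e
    exact ⟨_, CA.SuzBase.L_normal hS, F, _, _, CA.SuzBase.L_odd hS, h6, e⟩

end Hyp

end CA.H19Pgu
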