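import Cfsg.Agent.Lib.Rec.H19PguA
import Cfsg.Agent.Lib.Lin.AutForm9
import Cfsg.Agent.Lib.Lin.SU3
import Cfsg.Agent.Lib.Lin.AschU

/-! The centralizer of an involution of `PGU₃(q)`, `q` even. -/

set_option autoImplicit false
set_option linter.unusedSectionVars false

namespace CA.H19Pgu

open Subgroup Cfsg Matrix CA.CForm CA.AutForm CA.AutGam SemidirectProduct

variable {F : Type*} [Field F] [Fintype F] [CharP F 2] {q : ℕ} (hF : Fintype.card F = q ^ 2)

omit [Fintype F] in
theorem two : (2 : F) = 0 := CharTwo.two_eq_zero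

/-- parameters of the stabilizer of the vector `(1, 1, 0)` -/
@[ext] structure H where
  y : F
  w : F
  m : F
  h1 : y + conj hF y + w * conj hF w = 0
  h2 : m * conj hF m = 1

variable {hF}

instance : Mul (H hF) := ⟨fun a b => ⟨a.y + b.y + conj hF a.w * a.m * b.w, a.w + a.m * b.w, a.m * b.m, by
  simp only [map_add, map_mul, conj_conj]
  linear_combination a.h1 + b.h1 + b.w * conj hF b.w * a.h2 +
    (conj hF a.w * a.m * b.w + a.w * conj hF a.m * conj hF b.w) * two (F := F), by
  simp only [map_mul]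
  linear_combination b.m * conj hF b.m * a.h2 + b.h2⟩⟩
instance : One (H hF) := ⟨⟨0, 0, 1, by simp, by simp⟩⟩
instance : Inv (H hF) := ⟨fun a => ⟨conj hF a.y, conj hF a.m * a.w, conj hF a.m, by
  simp only [map_mul, conj_conj]
  linear_combination a.h1 + a.w * conj hF a.w * a.h2, by
  simp only [conj_conj]
  linear_combination a.h2⟩⟩

@[simp] theorem mul_y (a b : H hF) : (a * b).y = a.y + b.y + conj hF a.w * a.m * b.w := rfl
@[simp] theorem mul_w (a b : H hF) : (a * b).w = a.w + a.m * b.w := rfl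
@[simp] theorem mul_m (a b : H hF) : (a * b).m = a.m * b.m := rfl
@[simp] theorem one_y : (1 : H hF).y = 0 := rfl
@[simp] theorem one_w : (1 : H hF).w = 0 := rfl
@[simp] theorem one_m : (1 : H hF).m = 1 := rfl
@[simp] theorem inv_y (a : H hF) : a⁻¹.y = conj hF a.y := rfl
@[simp] theorem inv_w (a : H hF) : a⁻¹.w = conj hF a.m * a.w := rfl
@[simp] theorem inv_m (a : H hF) : a⁻¹.m = conj hF a.m := rfl

instance : Group (H hF) := Group.ofLeftAxioms
  (fun a b c => by
    ext <;> simp only [mul_y, mul_w, mul_m, map_add, map_mul]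
    · linear_combination conj hF b.w * b.m * c.w * a.h2
    · ring
    · ring)
  (fun a => by ext <;> simp)
  (fun a => by
    ext <;> simp only [mul_y, mul_w, mul_m, inv_y, inv_w, inv_m, one_y, one_w, one_m, map_mul, conj_conj]
    · linear_combination a.h1 + a.w * conj hF a.w * a.h2
    · linear_combination conj hF a.m * a.w * two (F := F)
    · linear_combination a.h2)

/-- the last parameter -/
def mH : H hF →* F where
  toFun := H.m
  map_one' := rfl
  map_mul' := mul_m

theorem sq_one {x : H hF} (h : x * x = 1) : x.w = 0 ∧ x.m = 1 := by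
  have h1 : x.y + x.y + conj hF x.w * x.m * x.w = 0 := congrArg H.y h
  have h2 : x.m * x.m = 1 := congrArg H.m h
  have h3 : x.m = 1 := by
    have : (x.m - 1) ^ 2 = 0 := by linear_combination h2 + (1 - x.m) * two (F := F)
    exact sub_eq_zero.1 (pow_eq_zero_iff two_ne_zero |>.1 this)
  refine ⟨?_, h3⟩
  have h4 : conj hF x.w * x.w = 0 := by rw [h3] at h1; linear_combination h1 - x.y * two (F := F)
  rcases mul_eq_zero.1 h4 with h5 | h5
  · exact (map_eq_zero _).1 h5
  · exact h5

/-- the central involutions -/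
def zH (a : F) (ha : conj hF a = a) : H hF :=
  ⟨a, 0, 1, by rw [ha]; linear_combination a * two (F := F), by simp⟩

theorem zH_sq (a : F) (ha : conj hF a = a) : zH a ha * zH a ha = 1 := by
  ext <;> simp [zH, CharTwo.add_self_eq_zero]

variable (hF) in
theorem spec_H : Spec (H hF) q := by
  refine ⟨fun x y hx => ?_, ?_, (mH (hF := hF)).ker, ?_, fun x => ⟨fun hx => ⟨2, ?_⟩, fun ⟨k, hk⟩ => ?_⟩,
    fun x hx => ?_⟩
  · obtain ⟨h1, h2⟩ := sq_one hx
    ext <;> simp [h1, h2, add_comm]
  · refine Eq.trans (Nat.card_congr ?_) (card_conj_fixed hF)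
    exact
      { toFun := fun x => ⟨x.1.y, by
          have := x.1.h1
          rw [(sq_one x.2).1, zero_mul, add_zero, conj_apply] at this
          linear_combination this - x.1.y * two (F := F)⟩
        invFun := fun a => ⟨zH a.1 a.2, zH_sq _ _⟩
        left_inv := fun x => Subtype.ext (H.ext rfl (sq_one x.2).1.symm (sq_one x.2).2.symm)
        right_inv := fun a => rfl }
  · rw [← SU3.card_Hs (hF := hF)]
    exact Nat.card_congr
      { toFun := fun x => ⟨x.1.w, x.1.y, x.1.h1⟩
        invFun := fun a => ⟨⟨a.b, a.a, 1, a.h, by simp⟩, rfl⟩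
        left_inv := fun x => Subtype.ext (H.ext rfl rfl (show x.1.m = 1 from x.2).symm)
        right_inv := fun a => rfl }
  · have h1 : x.m = 1 := hx
    rw [show 2 ^ 2 = 2 * 2 from rfl, pow_mul, sq, sq]
    ext <;> simp [h1, CharTwo.add_self_eq_zero]
  · haveI := Fact.mk Nat.prime_two
    have h1 : x.m ^ 2 ^ k = 1 := (map_pow mH x _).symm.trans (by rw [hk, map_one])
    have h2 : (x.m - 1) ^ 2 ^ k = 0 := by rw [sub_pow_char_pow, h1, one_pow, sub_self]
    exact sub_eq_zero.1 (pow_eq_zero_iff (by positivity) |>.1 h2)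
  · obtain ⟨a, ha⟩ := Kind.exists_trace_eq (conj hF) (conj_conj hF) (conj_ne_id hF) 1 (map_one _)
    have := congrArg H.w (hx ⟨a, 1, 1, by rw [ha]; simpa [one_add_one_eq_two] using two (F := F), by simp⟩ rfl)
    simp only [mul_w, mul_one, one_mul] at this
    change x.m = 1
    linear_combination this

/-- the matrix -/
def mat : H hF →* Matrix (Fin 3) (Fin 3) F where
  toFun x := !![1 + x.y, x.y, conj hF x.w * x.m; x.y, 1 + x.y, conj hF x.w * x.m; x.w, x.w, x.m]
  map_one' := by ext i j; fin_cases i <;> fin_cases j <;> simp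
  map_mul' a b := by
    have := a.h2
    have h2 := two (F := F)
    ext i j
    fin_cases i <;> fin_cases j <;> simp [Matrix.mul_apply, Fin.sum_univ_three] <;> grind

theorem mat_apply (x : H hF) :
    mat x = !![1 + x.y, x.y, conj hF x.w * x.m; x.y, 1 + x.y, conj hF x.w * x.m; x.w, x.w, x.m] := rfl

/-- the embedding into the unitary group -/
def rho : H hF →* GU 3 F q := (mat (hF := hF)).toHomUnits.codRestrict _ fun x => by
  rw [AschU.mem_GU_iff hF, MonoidHom.coe_toHomUnits, mat_apply]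
  have := x.h1
  have := x.h2
  have h2 := two (F := F)
  ext i j
  fin_cases i <;> fin_cases j <;> simp [Matrix.mul_apply, Fin.sum_univ_three, conj_conj] <;> grind

theorem rho_val (x : H hF) : ((rho x).1 : Matrix (Fin 3) (Fin 3) F) = mat x := rfl

theorem exists_su (a : F) (ha : conj hF a = a) : ∃ s, jSU F q 3 s = (rho (zH a ha)).1 := by
  refine (mem_range_jSU hF).2 ⟨(rho _).2, Units.ext ?_⟩
  rw [GeneralLinearGroup.val_det_apply, rho_val, mat_apply, det_fin_three]
  simp [zH]
  linear_combination a * two (F := F)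

omit [Fintype F] in
theorem eq_of_inv {A B : GL (Fin 3) F} (hA : A * A = 1) (hB : B * B = 1) (h : A⁻¹ * B ∈ center (GL (Fin 3) F)) :
    A = B := by
  obtain ⟨c, hc⟩ := mem_center_iff_scalar.1 h
  have h1 : B = A * GeneralLinearGroup.scalar _ c := by rw [hc]; group
  have h2 : GeneralLinearGroup.scalar (Fin 3) (c * c) = 1 := by
    rw [h1, mul_assoc, ← mul_assoc _ A, ← gl_scalar_comm, mul_assoc, ← mul_assoc, hA, one_mul] at hB
    rw [map_mul, hB]
  have h3 : (c : F) * c = 1 := by
    have := congrArg (fun g : GL (Fin 3) F => g.1 0 0) h2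
    simpa using this
  have h4 : c = 1 := by
    have : ((c : F) - 1) ^ 2 = 0 := by linear_combination h3 + (1 - (c : F)) * two (F := F)
    exact Units.ext (sub_eq_zero.1 (pow_eq_zero_iff two_ne_zero |>.1 this))
  rw [h1, h4, map_one, mul_one]

variable (hs : ¬(3 = 3 ∧ q = 2))

variable (hF) in
/-- the action of the unitary group on `PSU₃(q)` -/
noncomputable def psi : GU 3 F q →* MulAut (PSU 3 F q) := (embSU hF le_rfl hs).PhL (GU_le hF)

theorem psi_apply (g : GU 3 F q) : psi hF hs g = (embSU hF le_rfl hs).Ph ⟨inl g.1, GU_le hF g.2⟩ := rfl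

theorem psi_eq_one {g : GU 3 F q} : psi hF hs g = 1 ↔ g.1 ∈ center (GL (Fin 3) F) := by
  rw [psi_apply, Emb.Ph_eq_one_iff, inl_mem_ZG]

/-- the special unitary group inside the unitary group -/
def jG : SU 3 F q →* GU 3 F q := (jSU F q 3).codRestrict _ fun s => s.2

theorem psi_mk (g : GU 3 F q) {s s' : SU 3 F q} (e : jG s' = g * jG s * g⁻¹) :
    psi hF hs g (QuotientGroup.mk s) = QuotientGroup.mk s' :=
  (embSU hF le_rfl hs).Ph_mk _ (congrArg Subtype.val e)

theorem psi_jG (s : SU 3 F q) : psi hF hs (jG s) = MulAut.conj (QuotientGroup.mk s : PSU 3 F q) := by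
  ext x
  obtain ⟨x, rfl⟩ := QuotientGroup.mk_surjective x
  rw [psi_mk hs _ (s' := s * x * s⁻¹) (by simp only [map_mul, map_inv])]
  rfl

include hF hs in
theorem mem_cen {g : GU 3 F q} : g ∈ center (GU 3 F q) ↔ g.1 ∈ center (GL (Fin 3) F) := by
  refine ⟨fun h => (psi_eq_one (hF := hF) hs).1 ?_, fun h => mem_center_iff.2 fun x =>
    Subtype.ext (mem_center_iff.1 h x.1)⟩
  ext x
  obtain ⟨x, rfl⟩ := QuotientGroup.mk_surjective x
  exact psi_mk hs _ (by rw [← mem_center_iff.1 h]; group)

variable (hF) in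
/-- the action of `PGU₃(q)` on `PSU₃(q)` -/
noncomputable def psiQ : GU 3 F q ⧸ center (GU 3 F q) →* MulAut (PSU 3 F q) :=
  QuotientGroup.lift _ (psi hF hs) fun _ h => (psi_eq_one hs).2 ((mem_cen (hF := hF) hs).1 h)

theorem psiQ_mk (g : GU 3 F q) : psiQ hF hs (QuotientGroup.mk g) = psi hF hs g := rfl

theorem psiQ_injective : Function.Injective (psiQ hF hs) := by
  refine (injective_iff_map_eq_one _).2 fun x hx => ?_
  obtain ⟨x, rfl⟩ := QuotientGroup.mk_surjective x
  exact (QuotientGroup.eq_one_iff _).2 ((mem_cen (hF := hF) hs).2 ((psi_eq_one hs).1 hx))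

variable (hF) in
/-- the standard involution -/
def z1 : H hF := zH 1 (map_one _)

include hs in
theorem mk_rho_injective :
    Function.Injective ((QuotientGroup.mk' (center (GU 3 F q))).comp (rho (hF := hF))) := by
  refine (injective_iff_map_eq_one _).2 fun x hx => ?_
  obtain ⟨c, hc⟩ := mem_center_iff_scalar.1 ((mem_cen (hF := hF) hs).1 ((QuotientGroup.eq_one_iff _).1 hx))
  have e : ∀ i j, (GeneralLinearGroup.scalar (Fin 3) c).1 i j = mat x i j := fun i j => by rw [hc]; rfl
  have e1 := e 0 0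
  have e2 := e 0 1
  have e3 := e 2 0
  have e4 := e 2 2
  simp [mat_apply] at e1 e2 e3 e4
  exact H.ext e2.symm e3.symm (by rw [← e4, e1, ← e2, add_zero]; rfl)

theorem exists_rho {g : GU 3 F q} (h : g * rho (z1 hF) = rho (z1 hF) * g) :
    ∃ x : H hF, (QuotientGroup.mk g : GU 3 F q ⧸ center (GU 3 F q)) = QuotientGroup.mk (rho x) := by
  have e : ∀ i j, (g.1.1 * mat (z1 hF)) i j = (mat (z1 hF) * g.1.1) i j := fun i j =>
    congrArg (fun g : GU 3 F q => g.1.1 i j) h
  have u : ∀ i j, (g.1.1ᵀ * g.1.1.map (conj hF)) i j = (1 : Matrix (Fin 3) (Fin 3) F) i j := fun i j => by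
    rw [(AschU.mem_GU_iff hF).1 g.2]
  have e1 := e 0 0
  have e2 := e 0 1
  have e3 := e 0 2
  have e4 := e 2 0
  have u1 := u 0 0
  have u2 := u 0 1
  have u3 := u 2 0
  have u4 := u 2 2
  have h2 := two (F := F)
  simp [mat_apply, z1, zH, Matrix.mul_apply, Fin.sum_univ_three, CharTwo.add_self_eq_zero]
    at e1 e2 e3 e4 u1 u2 u3 u4
  generalize hg : g.1.1 = M at *
  have e5 : M 1 2 = M 0 2 := by linear_combination -e3
  have e6 : M 2 1 = M 2 0 := by linear_combination e4
  have e7 : M 1 0 = M 0 1 := e1.symm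
  have e8 : M 1 1 = M 0 0 := e2.symm
  simp only [e5, e6, e7, e8] at u1 u2 u3 u4
  have hl : (M 0 0 + M 0 1) * conj hF (M 0 0 + M 0 1) = 1 := by rw [map_add]; grind
  have h0 : M 0 0 + M 0 1 ≠ 0 := left_ne_zero_of_mul_eq_one hl
  let x : H hF := ⟨conj hF (M 0 0 + M 0 1) * M 0 1, conj hF (M 0 0 + M 0 1) * M 2 0,
    conj hF (M 0 0 + M 0 1) * M 2 2, by simp only [map_mul, map_add, conj_conj] at hl ⊢; grind,
    by simp only [map_mul, map_add, conj_conj] at hl ⊢; grind⟩
  refine ⟨x, (QuotientGroup.eq.2 (mem_center_iff.2 fun k => Subtype.ext (mem_center_iff.1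
    (show ((rho x)⁻¹ * g).1 ∈ center (GL (Fin 3) F) from ?_) k.1))).symm⟩
  refine mem_center_iff_scalar.2 ⟨Units.mk0 _ h0, ?_⟩
  rw [Subgroup.coe_mul, Subgroup.coe_inv, eq_inv_mul_iff_mul_eq]
  ext i j
  rw [Units.val_mul, rho_val, hg, mat_apply]
  simp only [map_add] at hl
  fin_cases i <;> fin_cases j <;>
    simp [x, Matrix.mul_apply, Fin.sum_univ_three, conj_conj, e5, e6, e7, e8] <;> grind

theorem comm_of_mk {g : GU 3 F q} (hs : ¬(3 = 3 ∧ q = 2))
    (h : (QuotientGroup.mk g : GU 3 F q ⧸ center (GU 3 F q)) * QuotientGroup.mk (rho (z1 hF)) =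
      QuotientGroup.mk (rho (z1 hF)) * QuotientGroup.mk g) : g * rho (z1 hF) = rho (z1 hF) * g := by
  have h1 : rho (z1 hF) * rho (z1 hF) = 1 := by rw [← map_mul, z1, zH_sq, map_one]
  have h2 : (QuotientGroup.mk (rho (z1 hF)) : GU 3 F q ⧸ center (GU 3 F q)) =
      QuotientGroup.mk (g * rho (z1 hF) * g⁻¹) := by
    rw [QuotientGroup.mk_mul, QuotientGroup.mk_mul, h, QuotientGroup.mk_inv, mul_inv_cancel_right]
  have h3 := eq_of_inv (A := (rho (z1 hF)).1) (B := (g * rho (z1 hF) * g⁻¹).1) (congrArg Subtype.val h1)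
    (congrArg Subtype.val (show g * rho (z1 hF) * g⁻¹ * (g * rho (z1 hF) * g⁻¹) = 1 by
      rw [show g * rho (z1 hF) * g⁻¹ * (g * rho (z1 hF) * g⁻¹) = g * (rho (z1 hF) * rho (z1 hF)) * g⁻¹ by group, h1]
      group)) ((mem_cen (hF := hF) hs).1 (QuotientGroup.eq.1 h2))
  exact (eq_mul_inv_iff_mul_eq.1 (Subtype.ext h3)).symm

variable (hF) in
/-- the standard involution of `PGU₃(q)` -/
def yy : GU 3 F q ⧸ center (GU 3 F q) := QuotientGroup.mk (rho (z1 hF))

include hs in
theorem ord_yy : orderOf (yy hF) = 2 := by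
  haveI := Fact.mk Nat.prime_two
  refine orderOf_eq_prime ?_ fun e => ?_
  · rw [yy, sq, ← QuotientGroup.mk_mul, ← map_mul, z1, zH_sq, map_one, QuotientGroup.mk_one]
  · have := congrArg H.y (mk_rho_injective hs (e.trans (map_one _).symm))
    simp [z1, zH] at this

include hs in
theorem spec_yy : Spec (centralizer ({yy hF} : Set (GU 3 F q ⧸ center (GU 3 F q)))) q := by
  have h : ((QuotientGroup.mk' (center (GU 3 F q))).comp (rho (hF := hF))).range = centralizer {yy hF} := by
    refine le_antisymm ?_ fun g hg => ?_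
    · rintro _ ⟨x, rfl⟩
      refine mc.2 ?_
      change QuotientGroup.mk (rho x * rho (z1 hF)) = QuotientGroup.mk (rho (z1 hF) * rho x)
      rw [← map_mul, ← map_mul, (spec_H hF).cen (z1 hF) x (zH_sq _ _)]
    · obtain ⟨g, rfl⟩ := QuotientGroup.mk_surjective g
      obtain ⟨x, hx⟩ := exists_rho (comm_of_mk hs (mc.1 hg))
      exact ⟨x, hx.symm⟩
  exact (spec_H hF).of_equiv ((MulEquiv.subgroupCongr h.symm).trans (MonoidHom.ofInjective (mk_rho_injective hs)).symm)

/-- an automorphism centralizing the root subgroup induces on the field an automorphism of order at most two -/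
theorem sq_of_fix (x : Gam (hermStd hF 3))
    (h : ∀ a ha, (embSU hF le_rfl hs).Ph x * psi hF hs (rho (zH a ha)) * ((embSU hF le_rfl hs).Ph x)⁻¹ =
      psi hF hs (rho (zH (hF := hF) a ha))) : x.1.right * x.1.right = 1 := by
  have key : ∀ a ha, (x.1.left.1 * (mat (zH (hF := hF) a ha)).map x.1.right) = mat (zH a ha) * x.1.left.1 := by
    intro a ha
    have h1 := h a ha
    rw [psi_apply, Emb.Ph_conj_inl, eq_comm, Emb.Ph_eq_iff, ← map_inv, ← map_mul, inl_mem_ZG] at h1
    have h2 : (rho (zH (hF := hF) a ha)).1 * (rho (zH (hF := hF) a ha)).1 = 1 := by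
      rw [← Subgroup.coe_mul, ← map_mul, zH_sq, map_one, Subgroup.coe_one]
    have h3 := eq_of_inv h2 (by
      rw [show ∀ a b : GL (Fin 3) F, a * b * a⁻¹ * (a * b * a⁻¹) = a * (b * b) * a⁻¹ from fun a b => by group,
        ← map_mul, h2, map_one, mul_one, mul_inv_cancel]) h1
    have h4 := congrArg Units.val (eq_mul_inv_iff_mul_eq.1 h3)
    rw [Units.val_mul, Units.val_mul, coe_fldGL] at h4
    exact h4.symm
  have hN : ∀ a ha, mat (zH (hF := hF) a ha) = 1 + a • !![1, 1, 0; 1, 1, 0; 0, 0, 0] := fun a ha => by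
    ext i j; fin_cases i <;> fin_cases j <;> simp [mat_apply, zH]
  have hM : ∀ a ha, (mat (zH (hF := hF) a ha)).map x.1.right =
      1 + x.1.right a • !![1, 1, 0; 1, 1, 0; 0, 0, 0] := fun a ha => by
    ext i j; fin_cases i <;> fin_cases j <;> simp [mat_apply, zH]
  have fx : ∀ a, conj hF a = a → x.1.right a = a := fun a ha => by
    have h1 := key 1 (map_one _)
    have h2 := key a ha
    rw [hM, hN] at h1 h2
    simp only [map_one, one_smul, mul_add, add_mul, mul_one, one_mul, add_right_inj, Matrix.mul_smul,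
      Matrix.smul_mul] at h1 h2
    rw [← h1, ← sub_eq_zero, ← sub_smul, smul_eq_zero] at h2
    rcases h2 with h2 | h2
    · exact sub_eq_zero.1 h2
    · have := congrArg (fun M => ((x.1.left⁻¹).1 * M) 0 0) h2
      simp only [← Matrix.mul_assoc, Units.inv_mul, Matrix.one_mul, Matrix.mul_zero] at this
      simp at this
  ext a
  have cm : ∀ b, x.1.right (conj hF b) = conj hF (x.1.right b) := fun b => by simp only [conj_apply, map_pow]
  have h1 := fx (a + conj hF a) (by rw [map_add, conj_conj, add_comm])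
  have h2 := fx (a * conj hF a) (by rw [map_mul, conj_conj, mul_comm])
  rw [map_add] at h1
  rw [map_mul] at h2
  have h3 : (x.1.right a - a) * (x.1.right a - conj hF a) = 0 := by
    linear_combination x.1.right a * h1 - h2
  change x.1.right (x.1.right a) = a
  rcases mul_eq_zero.1 h3 with h4 | h4
  · rw [sub_eq_zero.1 h4, sub_eq_zero.1 h4]
  · rw [sub_eq_zero.1 h4, cm, sub_eq_zero.1 h4, conj_conj]

end CA.H19Pgu
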