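import Cfsg.Agent.Lib.Comp.CTrans
import Cfsg.Agent.Lib.Comp.CLow

/-! Faithful regular models: word problems of a small presented subgroup decided by the kernel. -/

set_option autoImplicit false
set_option linter.all false

namespace CA.RegM

open CA.CNet CA.CWord CA.CLevel CA.CSimple CA.CPoint CA.CLow CA.CTodd CA.CTrans CA.CPres Subgroup

universe u

/-- `exists_hom_of_bound` with the model in `Type` -/
theorem hom_of_bound {rels gens : List Word} {N : ℕ} (hB : Bound.{u} rels gens N)
    {A : Type} {M : Type u} [Group A] [Group M] {a : ℕ → A} {q : ℕ → M} (ha : ∀ r ∈ rels, ev a r = 1)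
    (hq : ∀ r ∈ rels, ev q r = 1) (hN : N ≤ Nat.card (grp a gens)) :
    ∃ ψ : grp a gens →* M, (∀ v, ψ (ev (sg a gens) v) = ev q (subst gens v)) ∧
      ψ.range = grp q gens := by
  have e1 : ∀ w, (MonoidHom.fst A M) (ev (fun i => (a i, q i)) w) = ev a w := fun w => map_ev _ _ _
  have e2 : ∀ w, (MonoidHom.snd A M) (ev (fun i => (a i, q i)) w) = ev q w := fun w => map_ev _ _ _
  obtain ⟨h1, h2⟩ := hB (A × M) (fun i => (a i, q i)) fun r h1 =>
    Prod.ext ((e1 r).trans (ha r h1)) ((e2 r).trans (hq r h1))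
  have e3 : (grp (fun i => (a i, q i)) gens).map (MonoidHom.fst A M) = grp a gens := map_grp _ _ _
  obtain ⟨f, hf⟩ := equiv_of_inj (MonoidHom.fst A M) (A := grp (fun i => (a i, q i)) gens)
    (fun x hx => inj_of_card _ (h2.trans (e3 ▸ hN)) hx) le_rfl e3
  refine ⟨((MonoidHom.snd A M).comp (Subgroup.subtype _)).comp f.symm.toMonoidHom, fun v => ?_, ?_⟩
  · have : f ⟨_, subst_mem_grp _ gens v⟩ = ev (sg a gens) v :=
      Subtype.ext ((hf _).trans ((e1 _).trans (ev_sg _ _ _).symm))
    rw [← this]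
    simpa using e2 _
  · rw [MonoidHom.range_comp, MonoidHom.range_eq_top.2 f.symm.surjective, ← MonoidHom.range_eq_map,
      MonoidHom.range_comp, Subgroup.range_subtype]
    exact map_grp _ _ _

noncomputable def lany {α : Type} (l : List α) (p : α → Bool) : Bool :=
  List.rec (motive := fun _ => Bool) false (fun a _ ih => Bool.rec ih true (p a)) l

theorem lany_iff {α : Type} {l : List α} {p : α → Bool} : lany l p = true ↔ ∃ a ∈ l, p a = true := by
  induction l with
  | nil => simp [lany]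
  | cons a l ih =>
    have e : lany (a :: l) p = Bool.rec (lany l p) true (p a) := rfl
    rw [e]
    cases h : p a <;> simp [ih, h]

/-- implication -/
noncomputable def imp (a b : Bool) : Bool := Bool.rec true b a
theorem imp_iff {a b : Bool} : imp a b = true ↔ (a = true → b = true) := by cases a <;> simp [imp]
noncomputable def bor (a b : Bool) : Bool := Bool.rec b true a
theorem bor_iff {a b : Bool} : bor a b = true ↔ a = true ∨ b = true := by cases a <;> simp [bor]
noncomputable def bnot (a : Bool) : Bool := Bool.rec true false a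
theorem bnot_iff {a : Bool} : bnot a = true ↔ ¬ a = true := by cases a <;> simp [bnot]

/-- the words of `l` have the keys `c, c + 1, …`, up to `N` -/
noncomputable def idxOK (key : Word → ℕ) (N : ℕ) (l : List Word) : ℕ → Bool :=
  List.rec (motive := fun _ => ℕ → Bool) (fun c => Nat.ble N c)
    (fun w _ ih c => band (Nat.beq (key w) c) (force (Nat.succ c) ih)) l

theorem idxOK_spec {key : Word → ℕ} {N : ℕ} {l : List Word} {c : ℕ} (h : idxOK key N l c = true)
    {p : ℕ} (h1 : c ≤ p) (h2 : p < N) : ∃ w ∈ l, key w = p := by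
  induction l generalizing c with
  | nil => exact absurd (Nat.le_of_ble_eq_true h) (by omega)
  | cons w l ih =>
    obtain ⟨h3, h4⟩ := band_iff.1 (show band (Nat.beq (key w) c)
      (force (Nat.succ c) (idxOK key N l)) = true from h)
    rw [force_eq] at h4
    rcases h1.eq_or_lt with rfl | h1
    · exact ⟨w, List.mem_cons_self, Nat.eq_of_beq_eq_true h3⟩
    · obtain ⟨v, hv, e⟩ := ih h4 h1
      exact ⟨v, List.mem_cons_of_mem _ hv, e⟩

variable {G : Type u} [Group G]

/-- the values of a list -/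
def gl (l : List G) (i : ℕ) : G := l.getD i 1

theorem gl_mem {l : List G} {H : Subgroup G} (h : ∀ x ∈ l, x ∈ H) (i : ℕ) : gl l i ∈ H := by
  unfold gl
  rw [List.getD_eq_getElem?_getD]
  cases e : l[i]? with
  | none => exact one_mem _
  | some x => exact h x (List.mem_of_getElem? e)

/-- `key` decides the word problem of `g`, and `El` lists the elements of `H = ⟨g⟩` -/
structure Md (g : ℕ → G) (key : Word → ℕ) (El : List Word) (H : Subgroup G) : Prop where
  eq : ∀ u v, ev g u = ev g v ↔ key u = key v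
  all : ∀ h ∈ H, ∃ w ∈ El, h = ev g w
  mem : ∀ w, ev g w ∈ H

noncomputable def eqk (key : Word → ℕ) (u v : Word) : Bool := Nat.beq (key u) (key v)

theorem Md.eqk {g : ℕ → G} {key : Word → ℕ} {El : List Word} {H : Subgroup G} (M : Md g key El H)
    {u v : Word} : eqk key u v = true ↔ ev g u = ev g v := by
  rw [M.eq, RegM.eqk, Nat.beq_eq]

theorem Md.of {g : ℕ → G} {key : Word → ℕ} {El : List Word} {H : Subgroup G} (M : Md g key El H)
    {P : Word → Bool} (h : lall El P = true) {x : G} (hx : x ∈ H) : ∃ w, x = ev g w ∧ P w = true :=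
  let ⟨w, h1, h2⟩ := M.all x hx; ⟨w, h2, lall_iff.1 h w h1⟩

/-- iterated commutator -/
noncomputable def cw (qs : List Word) : Word → Word :=
  List.rec (motive := fun _ => Word → Word) (fun w => w) (fun q _ ih w => ih (wcomm w q)) qs

theorem ev_cw {g : ℕ → G} (qs : List Word) {w : Word} (h : ev g w = 1) : ev g (cw qs w) = 1 := by
  induction qs generalizing w with
  | nil => exact h
  | cons q qs ih => exact ih ((ev_wcomm g w q).2 (by rw [h, one_mul, mul_one]))

/-- the singletons `[0], [2], …` -/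
def Sing (ws : List Word) (k : ℕ) : Prop := ∀ i, nth ws [] i = if i < k then [2 * i] else []

theorem Sing.ev {ws : List Word} {k : ℕ} (h : Sing ws k) {K : Type*} [Group K] {g : ℕ → K}
    (hg : ∀ i, k ≤ i → g i = 1) (w : Word) : CWord.ev g (subst ws w) = CWord.ev g w := by
  rw [ev_subst]
  congr 1
  funext i
  rw [h i]
  split_ifs with hi
  · exact ev_gen g i
  · exact (hg i (by omega)).symm

theorem sing_of (ws : List Word) (k : ℕ) (h : ws = (List.range k).map fun i => [2 * i]) : Sing ws k := by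
  intro i
  rw [nth_eq_getD, h, List.getD_eq_getElem?_getD]
  split_ifs with hi <;> simp [hi]

theorem ctx_one (C : Ctx) {k : ℕ} (h : C.T.length = k) (i : ℕ) (hi : k ≤ i) : C.g i = 1 := by
  show toPerm _ (nth C.T [] i) = 1
  rw [nth_eq_getD, List.getD_eq_default _ _ (by omega)]; rfl

theorem gl_one {l : List G} {k : ℕ} (h : l.length = k) (i : ℕ) (hi : k ≤ i) : gl l i = 1 :=
  List.getD_eq_default _ _ (by omega)

/-- the data of a regular model -/
structure Reg (C : Ctx) (f : ℕ → ℕ → ℕ) (k : ℕ) (ws rels : List Word) (Ek : List (Word × List Word))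
    (z : Word) : Prop where
  good : Good C f
  len : C.T.length = k
  sing : Sing ws k
  pos : 0 < C.n
  rel : ∀ r ∈ rels, C.ev r = 1
  low : Low (C.grp ws) C.n [0]
  b0 : Bound.{0} rels ws C.n
  idx : idxOK (fun w => ipt f w 0) C.n (lmap Prod.fst Ek) 0 = true
  kill : lall Ek (fun e => bor (Nat.beq (ipt f e.1 0) 0)
    (Nat.beq (ipt f (cw e.2 e.1) 0) (ipt f z 0))) = true

theorem Reg.md {C : Ctx} {f : ℕ → ℕ → ℕ} {k : ℕ} {ws rels : List Word} {Ek : List (Word × List Word)}
    {z : Word} (R : Reg C f k ws rels Ek z) (hB : Bound.{u} rels ws C.n) {g : ℕ → G}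
    (hg : ∀ i, k ≤ i → g i = 1) (hr : ∀ r ∈ rels, ev g r = 1) (hz : ev g z ≠ 1) :
    Md g (fun w => ipt f w 0) (lmap Prod.fst Ek) (grp g ws) ∧ Nat.card (grp g ws) = C.n := by
  have hc := (R.b0 _ _ R.rel).2
  have hb := R.low.2 hc
  have hC := R.sing.ev (ctx_one C R.len)
  have hG := R.sing.ev hg
  have hm : ∀ w, C.ev w ∈ C.grp ws := fun w => by
    have := subst_mem_grp C.g ws w; rwa [hC] at this
  have hk : ∀ u v, C.ev u = C.ev v ↔ ipt f u 0 = ipt f v 0 := fun u v =>
    ⟨fun e => by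
      have := ipt_eq R.good u ⟨0, R.pos⟩
      rw [e, ← ipt_eq R.good] at this; exact this,
    fun e => eq_of_eqQ R.good hb (hm u) (hm v) (lall_iff.2 fun b hb => by
      rw [List.mem_singleton.1 hb]; exact Nat.beq_eq.mpr e)⟩
  have hall : ∀ x ∈ C.grp ws, ∃ e ∈ Ek, x = C.ev e.1 := fun x hx => by
    obtain ⟨w, h1, h2⟩ := idxOK_spec R.idx (Nat.zero_le _) (x⁻¹ ⟨0, R.pos⟩).2
    rw [lmap_eq] at h1
    obtain ⟨e, he, rfl⟩ := List.mem_map.1 h1
    obtain ⟨v, rfl⟩ := exists_subst hx
    exact ⟨e, he, (hk _ _).2 ((ipt_eq R.good _ ⟨0, R.pos⟩).trans h2.symm)⟩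
  obtain ⟨ψ, h1, h2⟩ := hom_of_bound hB R.rel hr R.low.1
  have h3 : ∀ w, ψ ⟨_, hm w⟩ = ev g w := fun w => by
    rw [← hG, ← h1]; congr 1; exact Subtype.ext ((hC w).symm.trans (ev_sg _ _ _).symm)
  have hi : Function.Injective ψ := by
    refine (injective_iff_map_eq_one ψ).2 fun ⟨x, hx⟩ h => ?_
    obtain ⟨e, he, rfl⟩ := hall x hx
    rcases bor_iff.1 (lall_iff.1 R.kill e he) with h4 | h4
    · exact Subtype.ext ((hk _ []).2 (Nat.eq_of_beq_eq_true h4))
    · refine absurd ?_ hz
      rw [← h3, ← ev_cw e.2 ((h3 _).symm.trans h), ← h3]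
      congr 1
      exact Subtype.ext ((hk _ _).2 (Nat.eq_of_beq_eq_true h4).symm)
  refine ⟨⟨fun u v => ?_, fun h hh => ?_, fun w => hG w ▸ subst_mem_grp _ _ _⟩, ?_⟩
  · rw [← hk, ← h3, ← h3, hi.eq_iff, Subtype.mk.injEq]
  · rw [← h2] at hh
    obtain ⟨⟨x, hx⟩, rfl⟩ := hh
    obtain ⟨e, he, rfl⟩ := hall x hx
    exact ⟨e.1, by rw [lmap_eq]; exact List.mem_map_of_mem he, h3 _⟩
  · rw [← h2]
    exact (Nat.card_congr (MonoidHom.ofInjective hi).toEquiv).symm.trans (R.low.card hc)

/-- conjugation acts on words by substitution -/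
theorem conj_ev {g : ℕ → G} {p : G} {σ : List Word} (h : ∀ i, p * g i * p⁻¹ = ev g (nth σ [] i))
    (w : Word) : p * ev g w * p⁻¹ = ev g (subst σ w) := by
  rw [ev_subst, ← funext h]
  exact map_ev (MulAut.conj p).toMonoidHom g w

/-- `p` acts on the points `e 0, …, e (m - 1)` by `f` -/
def Acts (e : ℕ → G) (m : ℕ) (p : G) (f : ℕ → ℕ) : Prop := ∀ n < m, f n < m ∧ p * e n * p⁻¹ = e (f n)

theorem Acts.mul {e : ℕ → G} {m : ℕ} {p q : G} {f f' : ℕ → ℕ} (h : Acts e m p f) (h' : Acts e m q f') :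
    Acts e m (p * q) fun n => f (f' n) := fun n hn =>
  ⟨(h _ (h' n hn).1).1, by rw [← (h _ (h' n hn).1).2, ← (h' n hn).2]; group⟩

theorem Acts.pow {e : ℕ → G} {m : ℕ} {p : G} {f : ℕ → ℕ} (h : Acts e m p f) (k : ℕ) :
    Acts e m (p ^ k) f^[k] := by
  induction k with
  | zero => exact fun n hn => ⟨hn, by simp⟩
  | succ k ih => rw [pow_succ]; exact ih.mul h

end CA.RegM
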